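import Mathlib
import Cfsg.Agent.Oct.Basic

/-!
Explicit automorphisms of Zorn's vector-matrix algebra.
-/

set_option autoImplicit false
set_option linter.unusedSimpArgs false
set_option linter.unnecessarySeqFocus false

namespace Cfsg.Agent.WQ.Oct

open Cfsg.Agent.Oct

variable {K : Type} [Field K]

/-- An automorphism from its coordinates. -/
def mkA (f g : (Fin 8 → K) → Fin 8 → K) (ha : ∀ x y, f (x + y) = f x + f y)
    (hs : ∀ (c : K) x, f (c • x) = c • f x) (h1 : ∀ x, g (f x) = x) (h2 : ∀ x, f (g x) = x)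
    (hm : ∀ x y, f (zm K x y) = zm K (f x) (f y)) : (zorn K).Aut :=
  ⟨{ toFun := f, invFun := g, map_add' := ha, map_smul' := hs, left_inv := h1, right_inv := h2 },
    hm⟩

theorem aext {g h : (zorn K).Aut} (e : ∀ x, g.1 x = h.1 x) : g = h :=
  Subtype.ext (LinearEquiv.ext e)

theorem amul (g h : (zorn K).Aut) (x : Fin 8 → K) : (g * h).1 x = g.1 (h.1 x) := rfl

theorem aone (x : Fin 8 → K) : (1 : (zorn K).Aut).1 x = x := rfl

/-- The coordinates of a diagonal automorphism. -/
def dgF (l m : K) (x : Fin 8 → K) : Fin 8 → K :=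
  ![x 0, l * x 1, m * x 2, (l * m)⁻¹ * x 3, l⁻¹ * x 4, m⁻¹ * x 5, l * m * x 6, x 7]

/-- A diagonal automorphism. -/
def dg (l m : Kˣ) : (zorn K).Aut :=
  mkA (dgF l m) (dgF (l : K)⁻¹ (m : K)⁻¹)
    (fun x y => by ext j; fin_cases j <;> simp [dgF] <;> ring)
    (fun c x => by ext j; fin_cases j <;> simp [dgF] <;> ring)
    (fun x => by
      have := l.ne_zero; have := m.ne_zero
      ext j; fin_cases j <;> simp [dgF] <;> field_simp)
    (fun x => by
      have := l.ne_zero; have := m.ne_zero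
      ext j; fin_cases j <;> simp [dgF] <;> field_simp)
    (fun x y => by
      have := l.ne_zero; have := m.ne_zero
      ext j; fin_cases j <;> simp [dgF, zm_apply] <;> field_simp)

theorem dg_apply (l m : Kˣ) (x : Fin 8 → K) : (dg l m).1 x =
    ![x 0, l * x 1, m * x 2, ((l : K) * m)⁻¹ * x 3, (l : K)⁻¹ * x 4, (m : K)⁻¹ * x 5,
      l * m * x 6, x 7] := rfl

/-- The coordinates of `sg`. -/
def sgF (x : Fin 8 → K) : Fin 8 → K := ![x 0, -x 2, -x 1, -x 3, -x 5, -x 4, -x 6, x 7]

variable (K) in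
/-- An involution interchanging the two coordinates of the torus. -/
def sg : (zorn K).Aut :=
  mkA sgF sgF
    (fun x y => by ext j; fin_cases j <;> simp [sgF] <;> ring)
    (fun c x => by ext j; fin_cases j <;> simp [sgF])
    (fun x => by ext j; fin_cases j <;> simp [sgF])
    (fun x => by ext j; fin_cases j <;> simp [sgF])
    (fun x y => by ext j; fin_cases j <;> simp [sgF, zm_apply] <;> ring)

theorem sg_apply (x : Fin 8 → K) :
    (sg K).1 x = ![x 0, -x 2, -x 1, -x 3, -x 5, -x 4, -x 6, x 7] := rfl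

/-- The coordinates of `uu`. -/
def uuF (x : Fin 8 → K) : Fin 8 → K := ![x 7, -x 4, -x 5, -x 6, -x 1, -x 2, -x 3, x 0]

variable (K) in
/-- An involution inverting the torus. -/
def uu : (zorn K).Aut :=
  mkA uuF uuF
    (fun x y => by ext j; fin_cases j <;> simp [uuF] <;> ring)
    (fun c x => by ext j; fin_cases j <;> simp [uuF])
    (fun x => by ext j; fin_cases j <;> simp [uuF])
    (fun x => by ext j; fin_cases j <;> simp [uuF])
    (fun x y => by ext j; fin_cases j <;> simp [uuF, zm_apply] <;> ring)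

theorem uu_apply (x : Fin 8 → K) :
    (uu K).1 x = ![x 7, -x 4, -x 5, -x 6, -x 1, -x 2, -x 3, x 0] := rfl

/-- The coordinates of `cy`. -/
def cyF (x : Fin 8 → K) : Fin 8 → K := ![x 0, x 2, x 3, x 1, x 5, x 6, x 4, x 7]

variable (K) in
/-- An element of order three normalizing the torus. -/
def cy : (zorn K).Aut :=
  mkA cyF (fun x => cyF (cyF x))
    (fun x y => by ext j; fin_cases j <;> simp [cyF])
    (fun c x => by ext j; fin_cases j <;> simp [cyF])
    (fun x => by ext j; fin_cases j <;> simp [cyF])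
    (fun x => by ext j; fin_cases j <;> simp [cyF])
    (fun x y => by ext j; fin_cases j <;> simp [cyF, zm_apply] <;> ring)

theorem cy_apply (x : Fin 8 → K) :
    (cy K).1 x = ![x 0, x 2, x 3, x 1, x 5, x 6, x 4, x 7] := rfl

/-- The coordinates of `rA`. -/
def rAF (s : K) (x : Fin 8 → K) : Fin 8 → K :=
  ![x 0, x 1 + s * x 2, x 2, x 3, x 4, x 5 - s * x 4, x 6, x 7]

/-- A long root element. -/
def rA (s : K) : (zorn K).Aut :=
  mkA (rAF s) (rAF (-s))
    (fun x y => by ext j; fin_cases j <;> simp [rAF] <;> ring)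
    (fun c x => by ext j; fin_cases j <;> simp [rAF] <;> ring)
    (fun x => by ext j; fin_cases j <;> simp [rAF])
    (fun x => by ext j; fin_cases j <;> simp [rAF])
    (fun x y => by ext j; fin_cases j <;> simp [rAF, zm_apply] <;> ring)

theorem rA_apply (s : K) (x : Fin 8 → K) :
    (rA s).1 x = ![x 0, x 1 + s * x 2, x 2, x 3, x 4, x 5 - s * x 4, x 6, x 7] := rfl

/-- The coordinates of `rB`. -/
def rBF (s : K) (x : Fin 8 → K) : Fin 8 → K :=
  ![x 0, x 1, x 2 + s * x 1, x 3, x 4 - s * x 5, x 5, x 6, x 7]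

/-- The opposite long root element. -/
def rB (s : K) : (zorn K).Aut :=
  mkA (rBF s) (rBF (-s))
    (fun x y => by ext j; fin_cases j <;> simp [rBF] <;> ring)
    (fun c x => by ext j; fin_cases j <;> simp [rBF] <;> ring)
    (fun x => by ext j; fin_cases j <;> simp [rBF])
    (fun x => by ext j; fin_cases j <;> simp [rBF])
    (fun x y => by ext j; fin_cases j <;> simp [rBF, zm_apply] <;> ring)

theorem rB_apply (s : K) (x : Fin 8 → K) :
    (rB s).1 x = ![x 0, x 1, x 2 + s * x 1, x 3, x 4 - s * x 5, x 5, x 6, x 7] := rfl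

/-- The coordinates of `rX`. -/
def rXF (s : K) (x : Fin 8 → K) : Fin 8 → K :=
  ![x 0 + s * x 6, x 1, x 2, x 3 - s * x 0 + s * x 7 - s ^ 2 * x 6, x 4 + s * x 2, x 5 - s * x 1,
    x 6, x 7 - s * x 6]

/-- A short root element. -/
def rX (s : K) : (zorn K).Aut :=
  mkA (rXF s) (rXF (-s))
    (fun x y => by ext j; fin_cases j <;> simp [rXF] <;> ring)
    (fun c x => by ext j; fin_cases j <;> simp [rXF] <;> ring)
    (fun x => by ext j; fin_cases j <;> simp [rXF] <;> ring)
    (fun x => by ext j; fin_cases j <;> simp [rXF] <;> ring)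
    (fun x y => by ext j; fin_cases j <;> simp [rXF, zm_apply] <;> ring)

theorem rX_apply (s : K) (x : Fin 8 → K) : (rX s).1 x =
    ![x 0 + s * x 6, x 1, x 2, x 3 - s * x 0 + s * x 7 - s ^ 2 * x 6, x 4 + s * x 2, x 5 - s * x 1,
      x 6, x 7 - s * x 6] := rfl

/-- The coordinates of `rY`. -/
def rYF (s : K) (x : Fin 8 → K) : Fin 8 → K :=
  ![x 0 - s * x 3, x 1 - s * x 5, x 2 + s * x 4, x 3, x 4, x 5,
    x 6 + s * x 0 - s * x 7 - s ^ 2 * x 3, x 7 + s * x 3]

/-- The opposite short root element. -/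
def rY (s : K) : (zorn K).Aut :=
  mkA (rYF s) (rYF (-s))
    (fun x y => by ext j; fin_cases j <;> simp [rYF] <;> ring)
    (fun c x => by ext j; fin_cases j <;> simp [rYF] <;> ring)
    (fun x => by ext j; fin_cases j <;> simp [rYF] <;> ring)
    (fun x => by ext j; fin_cases j <;> simp [rYF] <;> ring)
    (fun x y => by ext j; fin_cases j <;> simp [rYF, zm_apply] <;> ring)

theorem rY_apply (s : K) (x : Fin 8 → K) : (rY s).1 x =
    ![x 0 - s * x 3, x 1 - s * x 5, x 2 + s * x 4, x 3, x 4, x 5,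
      x 6 + s * x 0 - s * x 7 - s ^ 2 * x 3, x 7 + s * x 3] := rfl

theorem dg_mul (l m l' m' : Kˣ) : dg l m * dg l' m' = dg (l * l') (m * m') := aext fun x => by
  ext j; fin_cases j <;> simp [amul, dg_apply] <;> ring

theorem dg_one : dg (1 : Kˣ) 1 = 1 := aext fun x => by
  ext j; fin_cases j <;> simp [aone, dg_apply]

/-- The torus. -/
def dgH : Kˣ × Kˣ →* (zorn K).Aut := MonoidHom.mk' (fun p => dg p.1 p.2) fun _ _ =>
  (dg_mul _ _ _ _).symm

theorem dg_pow (l m : Kˣ) (n : ℕ) : dg l m ^ n = dg (l ^ n) (m ^ n) :=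
  ((dgH (K := K)).map_pow (l, m) n).symm

theorem dg_inv (l m : Kˣ) : (dg l m)⁻¹ = dg l⁻¹ m⁻¹ := ((dgH (K := K)).map_inv (l, m)).symm

theorem sg_sq : sg K * sg K = 1 := aext fun x => by
  ext j; fin_cases j <;> simp [amul, aone, sg_apply]

theorem uu_sq : uu K * uu K = 1 := aext fun x => by
  ext j; fin_cases j <;> simp [amul, aone, uu_apply]

theorem sg_uu : sg K * uu K = uu K * sg K := aext fun x => by
  ext j; fin_cases j <;> simp [amul, sg_apply, uu_apply]

theorem sg_dg (l m : Kˣ) : sg K * dg l m = dg m l * sg K := aext fun x => by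
  ext j; fin_cases j <;> simp [amul, sg_apply, dg_apply, mul_comm]

theorem uu_dg (l m : Kˣ) : uu K * dg l m = dg l⁻¹ m⁻¹ * uu K := aext fun x => by
  ext j; fin_cases j <;> simp [amul, uu_apply, dg_apply, mul_comm]

theorem cy_dg (l m : Kˣ) : cy K * dg l m = dg m (l * m)⁻¹ * cy K := aext fun x => by
  ext j; fin_cases j <;> simp [amul, cy_apply, dg_apply]

theorem cy_uu : cy K * uu K = uu K * cy K := aext fun x => by
  ext j; fin_cases j <;> simp [amul, cy_apply, uu_apply]

theorem g2_spec (h2 : (2 : K) ≠ 0) {i : Kˣ} (hi : i * i = -1) :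
    rB (i : K) * rA ((i : K) / 2) * dg i i⁻¹ =
      dg (-1) 1 * sg K * (rB (i : K) * rA ((i : K) / 2)) := aext fun x => by
  have h : (i : K) * i = -1 := by simpa using congrArg Units.val hi
  have h' : (i : K)⁻¹ = -i := inv_eq_of_mul_eq_one_right (by linear_combination -h)
  have h0 := i.ne_zero
  ext j; fin_cases j <;>
    simp [amul, rA_apply, rB_apply, sg_apply, dg_apply, h', h] <;> field_simp <;> grind

theorem g1_spec (h2 : (2 : K) ≠ 0) {i : Kˣ} (hi : i * i = -1) :
    rY (i : K) * rX ((i : K) / 2) * dg i i =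
      dg (-1) 1 * sg K * uu K * (rY (i : K) * rX ((i : K) / 2)) := aext fun x => by
  have h : (i : K) * i = -1 := by simpa using congrArg Units.val hi
  have h' : (i : K)⁻¹ = -i := inv_eq_of_mul_eq_one_right (by linear_combination -h)
  have h0 := i.ne_zero
  ext j; fin_cases j <;>
    simp [amul, rX_apply, rY_apply, sg_apply, uu_apply, dg_apply, h', h] <;> field_simp <;> grind

end Cfsg.Agent.WQ.Oct
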